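import Cfsg.Agent.Hom.Basic
import Cfsg.Agent.Solv.CoprimeBasic
import Cfsg.Agent.S0071

/-!
# Homogeneous groups whose involutions are central
-/

set_option autoImplicit false

namespace Cfsg.Lib.Homog

open Subgroup Cfsg.Lib.Trans

variable {G : Type*} [Group G]

theorem mem_of_two_pow_mem {D : Subgroup G} {g : G} (hg : (orderOf g).Coprime 2) {k : ℕ}
    (h : g ^ 2 ^ k ∈ D) : g ∈ D := by
  obtain ⟨m, hm⟩ := exists_pow_eq_self_of_coprime (x := g) (n := 2 ^ k) (hg.symm.pow_left k)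
  exact hm ▸ pow_mem h m

theorem eq_of_conj_eq_mul {g a w : G} (hg : (orderOf g).Coprime 2) (hw : w ∈ center G)
    (h2 : w * w = 1) (h : g * a * g⁻¹ = a * w) : g * a * g⁻¹ = a := by
  have h1 : g ^ 2 ^ 1 ∈ centralizer {a} := mem_centralizer_of_conj_eq fun b hb => by
    rw [Set.mem_singleton_iff.1 hb]
    calc g ^ 2 ^ 1 * a * (g ^ 2 ^ 1)⁻¹ = g * (g * a * g⁻¹) * g⁻¹ := by
          rw [pow_one, pow_two]; group
      _ = g * a * g⁻¹ * w := by
          rw [h, mul_assoc, mul_assoc, ← mem_center_iff.1 hw, ← h]; group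
      _ = a := by rw [h, mul_assoc, h2, mul_one]
  exact conj_eq_of_mem_centralizer (mem_of_two_pow_mem hg h1) rfl

theorem conj_eq_of_commute (hZ : ∀ t : G, t * t = 1 → t ∈ center G) {g : G}
    (hg : (orderOf g).Coprime 2) (k : ℕ) :
    ∀ a : G, a ^ 2 ^ k = 1 → Commute a (g * a * g⁻¹) → g * a * g⁻¹ = a := by
  induction k with
  | zero => intro a ha _; simp [show a = 1 by simpa using ha]
  | succ k ih =>
    intro a ha hc
    have h1 := ih (a ^ 2) (by rw [← pow_mul, ← pow_succ', ha]) (by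
      rw [← conj_pow]; exact hc.pow_pow 2 2)
    have h2 : (a⁻¹ * (g * a * g⁻¹)) * (a⁻¹ * (g * a * g⁻¹)) = 1 := by
      rw [← pow_two, hc.inv_left.mul_pow, conj_pow, h1, inv_pow, inv_mul_cancel]
    exact eq_of_conj_eq_mul hg (hZ _ h2) h2 (by group)

theorem chi_mul_chi {H : Subgroup G} {v x y : G} (hv : v * v = 1) :
    ((x ∈ H ↔ y ∈ H) → chi H v x * chi H v y = 1) ∧
      (¬ (x ∈ H ↔ y ∈ H) → chi H v x * chi H v y = v) := by
  by_cases h1 : x ∈ H <;> by_cases h2 : y ∈ H <;>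
    simp [chi_of_mem, chi_of_notMem, h1, h2, hv]

variable [Finite G]

theorem IsHom.centralizer_of_central (hG : IsHom G) (hZ : ∀ t : G, t * t = 1 → t ∈ center G)
    {v v' : G} (hv : v * v = 1) (hv' : v' * v' = 1) (h1 : v ≠ 1) (h1' : v' ≠ 1) (hne : v ≠ v')
    {Q : Subgroup G} (hQ : IsPGroup 2 Q) {g : G} (hgQ : g ∈ normalizer (Q : Set G))
    (hg : (orderOf g).Coprime 2) : g ∈ centralizer (Q : Set G) := by
  by_contra hc
  obtain ⟨P, -, ⟨hP, g, hgP, hg, hgC⟩, hmax⟩ := Finite.exists_le_maximal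
    (p := fun P : Subgroup G => IsPGroup 2 P ∧ ∃ g ∈ normalizer (P : Set G),
      (orderOf g).Coprime 2 ∧ g ∉ centralizer (P : Set G)) ⟨hQ, g, hgQ, hg, hc⟩
  let E : Subgroup G :=
    { carrier := {t | t * t = 1}
      one_mem' := one_mul 1
      mul_mem' := fun {s t} hs ht => by
        change s * t * (s * t) = 1
        rw [mul_assoc, ← mul_assoc t, mem_center_iff.1 (hZ s hs) t, mul_assoc, ht, mul_one, hs]
      inv_mem' := fun {s} hs => by
        change s⁻¹ * s⁻¹ = 1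
        rw [← mul_inv_rev, hs, inv_one] }
  have hEZ : ∀ e ∈ E, ∀ x, x * e = e * x := fun e he => mem_center_iff.1 (hZ e he)
  have hEc : ∀ e ∈ E, ∀ x, x * e * x⁻¹ = e := fun e he x => by rw [hEZ e he]; simp
  have hE : EA E := ⟨fun a _ b hb => hEZ b hb a, fun _ h => h⟩
  have : E.Normal := ⟨fun e he x => by rwa [hEc e he]⟩
  have hsup : ∀ {R : Subgroup G} {n : G}, IsPGroup 2 R → R ≤ normalizer (P : Set G) →
      n ∈ normalizer (P : Set G) → n ∈ normalizer (R : Set G) → (orderOf n).Coprime 2 →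
      n ∉ centralizer (P : Set G) → R ≤ P := fun {R n} hR hRP hnP hnR hn hnC => by
    refine le_sup_left.trans (hmax (y := R ⊔ P) ⟨hR.to_sup_of_normal_right' hP hRP, n, ?_, hn,
      fun h => hnC (centralizer_le (SetLike.coe_subset_coe.2 le_sup_right) h)⟩ le_sup_right)
    rw [← cj_eq_self_iff, cj_sup, cj_eq_of_mem_normalizer hnP, cj_eq_of_mem_normalizer hnR]
  have hEP : E ≤ P := hsup hE.isPGroup
    (fun e he => mem_normalizer_of_comm fun a _ => (hEZ e he a).symm) hgP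
    (le_normalizer_of_normal (mem_top g)) hg hgC
  let D : Subgroup G :=
    { carrier := {c | ∀ x ∈ P, ∃ e ∈ E, c * x * c⁻¹ = x * e}
      one_mem' := fun x _ => ⟨1, one_mem _, by simp⟩
      mul_mem' := fun {c d} hc hd x hx => by
        obtain ⟨e, he, h⟩ := hd x hx
        obtain ⟨e', he', h'⟩ := hc x hx
        refine ⟨e' * e, mul_mem he' he, ?_⟩
        calc c * d * x * (c * d)⁻¹ = c * (d * x * d⁻¹) * c⁻¹ := by group
          _ = c * x * c⁻¹ * (c * e * c⁻¹) := by rw [h]; group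
          _ = _ := by rw [h', hEc e he, mul_assoc]
      inv_mem' := fun {c} hc x hx => by
        obtain ⟨e, he, h⟩ := hc x hx
        refine ⟨e⁻¹, inv_mem he, ?_⟩
        calc c⁻¹ * x * c⁻¹⁻¹ = c⁻¹ * (x * e) * c * (c⁻¹ * e * c⁻¹⁻¹)⁻¹ := by group
          _ = _ := by rw [← h, hEc e he]; group }
  have hD : ∀ c, c ∈ D ↔ ∀ x ∈ P, ∃ e ∈ E, c * x * c⁻¹ = x * e := fun c => Iff.rfl
  have hDP : D ≤ normalizer (P : Set G) := fun c hc => mem_normalizer_fintype fun x hx => by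
    obtain ⟨e, he, h⟩ := hc x hx
    rw [h]; exact mul_mem hx (hEP he)
  have hND : normalizer (P : Set G) ≤ normalizer (D : Set G) := fun n hn =>
    mem_normalizer_fintype fun c hc x hx => by
      obtain ⟨e, he, h⟩ := hc _ (mem_normalizer_conj' hn hx)
      refine ⟨e, he, ?_⟩
      calc n * c * n⁻¹ * x * (n * c * n⁻¹)⁻¹ = n * (c * (n⁻¹ * x * n) * c⁻¹) * n⁻¹ := by group
        _ = x * (n * e * n⁻¹) := by rw [h]; group
        _ = _ := by rw [hEc e he]
  have hgD : g ∉ D := fun h => hgC (mem_centralizer_of_conj_eq fun x hx => by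
    obtain ⟨e, he, h⟩ := h x hx
    exact eq_of_conj_eq_mul hg (hZ e he) he h)
  obtain ⟨R, hR⟩ := exists_isSylowIn (p := 2) D
  have hRP : R ≤ P := by
    obtain ⟨d, hd, n, hn, rfl⟩ := hR.frattini (hND hgP)
    have hnP : n ∈ normalizer (P : Set G) := (mul_mem_cancel_left (hDP hd)).1 hgP
    obtain ⟨k, m, hm, h⟩ := Nat.exists_eq_two_pow_mul_odd (orderOf_pos n).ne'
    refine hsup (n := n ^ 2 ^ k) hR.isPGroup (hR.le.trans hDP) (pow_mem hnP _) (pow_mem hn _)
      (Nat.Coprime.coprime_dvd_left (orderOf_dvd_of_pow_eq_one (n := m) ?_)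
        (Nat.coprime_two_right.2 hm)) fun h => hgD (mem_of_two_pow_mem hg (k := k) ?_)
    · rw [← pow_mul, ← h, pow_orderOf_eq_one]
    · have h2 : ∀ j : ℕ, (d * n) ^ j * (n ^ j)⁻¹ ∈ D := fun j => by
        induction j with
        | zero => simpa using D.one_mem
        | succ j ih =>
          have := mul_mem hd (mem_normalizer_conj (hND hnP) ih)
          rw [pow_succ', pow_succ']
          convert this using 1
          group
      exact (mul_mem_cancel_right (inv_mem (show n ^ 2 ^ k ∈ D from fun x hx =>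
        ⟨1, one_mem _, by rw [conj_eq_of_mem_centralizer h hx, mul_one]⟩))).1 (h2 _)
  obtain ⟨H, hCH, hHP, hi⟩ := exists_idx2 hP (lt_of_le_of_ne
    (inf_le_left : P ⊓ centralizer (zpowers g : Set G) ≤ P) fun h => hgC
      (mem_centralizer_iff.2 fun x hx =>
        (mem_centralizer_iff.1 (h.ge hx).2 g (mem_zpowers g)).symm))
  have hEH : E ≤ H := le_trans (le_inf hEP fun e he => mem_centralizer_iff.2 fun x _ => hEZ e he x) hCH
  obtain ⟨x₀, hx₀P, hx₀⟩ : ∃ x ∈ P, ¬ (x ∈ H ↔ g⁻¹ * x * g ∈ H) := by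
    by_contra hc
    push Not at hc
    have hgH : g ∈ normalizer (H : Set G) := by
      rw [← inv_mem_iff]
      exact mem_normalizer_fintype fun x hx => by simpa using (hc x (hHP.le hx)).1 hx
    obtain ⟨x, hxP, hx⟩ := SetLike.exists_of_lt hHP
    obtain ⟨j, hj⟩ := IsPGroup.iff_card.1 (hP.to_le hHP.le)
    obtain ⟨u, hu, h⟩ := Solv.Coprime.exists_mul_mem_centralizer (A := zpowers g) (H := H)
      (zpowers_le.2 hgH) (by rw [Nat.card_zpowers, hj]; exact hg.pow_right j)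
      (.inl (Group.isSolvable_of_comm fun a b => mul_comm' a b)) (g := x) fun a ha =>
        hi _ (inv_mem hxP) _ (mem_normalizer_conj (zpowers_le.2 hgP ha) hxP) (by simpa using hx)
          fun h => hx ((mem_normalizer_iff.1 (zpowers_le.2 hgH ha) x).2 h)
    exact hx ((mul_mem_cancel_right hu).1 (hCH ⟨mul_mem hxP (hHP.le hu), h⟩))
  have key : ∀ w ∈ E, ∃ t ∈ P, ∀ x ∈ P,
      t * x * t⁻¹ = x * (chi H w x * chi H w (g⁻¹ * x * g)) := fun w hw => by
    obtain ⟨c, hc2, -, hc⟩ := hG.k0 hi hE hEH hEP (fun e he x _ => (hEZ e he x).symm) hw hgP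
      (le_normalizer_of_normal (mem_top g))
    replace hc : ∀ x ∈ P, c * x * c⁻¹ = x * (chi H w x * chi H w (g⁻¹ * x * g)) := fun x hx => by
      rw [hc x hx, hEc _ (chi_mem hw _)]
    exact ⟨c, mem_of_sylow_le hR hDP hRP
      (fun x hx => ⟨_, mul_mem (chi_mem hw _) (chi_mem hw _), hc x hx⟩) hc2, hc⟩
  obtain ⟨t, htP, ht⟩ := key v hv
  obtain ⟨s, hsP, hs⟩ := key v' hv'
  have ht₁P := mem_normalizer_conj hgP htP
  have ht₁ : ∀ x ∈ P, g * t * g⁻¹ * x * (g * t * g⁻¹)⁻¹ =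
      x * (chi H v (g⁻¹ * x * g) * chi H v (g⁻¹ * (g⁻¹ * x * g) * g)) := fun x hx => by
    rw [← hEc _ (mul_mem (chi_mem (H := H) (E := E) hv (g⁻¹ * x * g)) (chi_mem hv _)) g]
    calc g * t * g⁻¹ * x * (g * t * g⁻¹)⁻¹ = g * (t * (g⁻¹ * x * g) * t⁻¹) * g⁻¹ := by group
      _ = _ := by rw [ht _ (mem_normalizer_conj' hgP hx)]; group
  have hμ : g * t * g⁻¹ ∈ H ↔ g⁻¹ * (g * t * g⁻¹) * g ∈ H := by
    by_contra hc
    have h2 := hs _ ht₁P
    have h3 := ht₁ s hsP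
    rw [(chi_mul_chi hv').2 hc] at h2
    generalize g * t * g⁻¹ = u at h2 h3
    have h4 : ∀ w, w ∈ E → u * s * u⁻¹ = s * w → v' * w = 1 := fun w hw h => by
      have h5 : s * u = u * s * v' := by
        rw [mul_assoc, hEZ v' hv', ← mul_assoc, ← h2]; group
      have h6 : u * s = s * u * w := by
        rw [mul_assoc, hEZ w hw, ← mul_assoc, ← h]; group
      rw [h6, mul_assoc, left_eq_mul] at h5
      rw [← hEZ v' hv', h5]
    by_cases h7 : g⁻¹ * s * g ∈ H ↔ g⁻¹ * (g⁻¹ * s * g) * g ∈ H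
    · rw [(chi_mul_chi hv).1 h7] at h3
      exact h1' (by simpa using h4 _ (one_mem _) h3)
    · rw [(chi_mul_chi hv).2 h7] at h3
      exact hne ((eq_inv_of_mul_eq_one_right (h4 _ hv h3)).trans (hE.inv hv'))
  obtain ⟨k, hk⟩ := hP ⟨t, htP⟩
  have hfix : g * t * g⁻¹ = t := conj_eq_of_commute hZ hg k t (congrArg Subtype.val hk) (by
    have := ht _ ht₁P
    rw [(chi_mul_chi hv).1 hμ, mul_one] at this
    exact mul_inv_eq_iff_eq_mul.1 this)
  have step : ∀ x ∈ P, ¬ (x ∈ H ↔ g⁻¹ * x * g ∈ H) →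
      ¬ (g⁻¹ * x * g ∈ H ↔ g⁻¹ * (g⁻¹ * x * g) * g ∈ H) := fun x hx h h' => by
    have := ht₁ x hx
    rw [hfix, ht x hx, (chi_mul_chi hv).2 h, (chi_mul_chi hv).1 h', mul_left_cancel_iff] at this
    exact h1 this
  have all : ∀ m : ℕ, ((g ^ (2 * m))⁻¹ * x₀ * g ^ (2 * m) ∈ H ↔ x₀ ∈ H) ∧
      ¬ ((g ^ (2 * m))⁻¹ * x₀ * g ^ (2 * m) ∈ H ↔
        g⁻¹ * ((g ^ (2 * m))⁻¹ * x₀ * g ^ (2 * m)) * g ∈ H) := fun m => by
    induction m with
    | zero => simpa using hx₀
    | succ m ih =>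
      have hy := mem_normalizer_conj' (pow_mem hgP (2 * m)) hx₀P
      have h2 := step _ hy ih.2
      have h3 := step _ (mem_normalizer_conj' hgP hy) h2
      have h4 : (g ^ (2 * (m + 1)))⁻¹ * x₀ * g ^ (2 * (m + 1)) =
          g⁻¹ * (g⁻¹ * ((g ^ (2 * m))⁻¹ * x₀ * g ^ (2 * m)) * g) * g := by
        rw [mul_add, mul_one, pow_add, pow_two]; group
      rw [h4]
      have := ih.1
      have := ih.2
      exact ⟨by tauto, h3⟩
  obtain ⟨m, hm⟩ := Nat.coprime_two_right.1 hg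
  obtain ⟨h2, h3⟩ := all m
  have h4 : g⁻¹ * ((g ^ (2 * m))⁻¹ * x₀ * g ^ (2 * m)) * g = x₀ := by
    have h5 : g ^ (2 * m) * g = 1 := by rw [← pow_succ, ← hm, pow_orderOf_eq_one]
    calc _ = (g ^ (2 * m) * g)⁻¹ * x₀ * (g ^ (2 * m) * g) := by group
      _ = x₀ := by rw [h5]; simp
  exact h3 (by rw [h4]; exact h2)

/-- A homogeneous group with at least two involutions, all central, is 2-nilpotent. -/
theorem IsHom.exists_complement (hG : IsHom G) (hZ : ∀ t : G, t * t = 1 → t ∈ center G)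
    {v v' : G} (hv : v * v = 1) (hv' : v' * v' = 1) (h1 : v ≠ 1) (h1' : v' ≠ 1) (hne : v ≠ v')
    (S : Sylow 2 G) : ∃ N : Subgroup G, N.Normal ∧ N.IsComplement' (S : Subgroup G) :=
  (Agent.S0071.result S).2 fun _ hQ _ hg ho =>
    hG.centralizer_of_central hZ hv hv' h1 h1' hne (S.isPGroup'.to_le hQ) hg ho

end Cfsg.Lib.Homog
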